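import Cfsg.Agent.Depth.S.LP
import Cfsg.Agent.Depth.D.Win
import Cfsg.Agent.Depth.L.Tw

/-!
# Depth (S5768): the circle method skeleton, general lemmas (helper15)
-/

set_option autoImplicit false

namespace Cfsg.Agent.Depth.K

open Finset Cfsg.Agent.Depth.S
open scoped Classical

theorem sum_le_of_rel {α β : Type*} (K : Finset α) (T : Finset β) (r : α → β → Prop) (F : α → ℝ) (G : β → ℝ)
    (hr : ∀ k ∈ K, ∀ k' ∈ K, ∀ y, r k y → r k' y → k = k') (hG : ∀ y ∈ T, 0 ≤ G y)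
    (h : ∀ k ∈ K, F k ≤ 0 ∨ ∃ y ∈ T, r k y ∧ F k ≤ G y) : ∑ k ∈ K, F k ≤ ∑ y ∈ T, G y := by
  have h1 : ∀ k ∈ K, F k ≤ ∑ y ∈ T, if r k y then G y else 0 := by
    intro k hk
    have h0 : ∀ y ∈ T, 0 ≤ if r k y then G y else 0 := fun y hy => by
      split_ifs
      exacts [hG y hy, le_rfl]
    rcases h k hk with h2 | ⟨y, hy, h2, h3⟩
    · exact h2.trans (sum_nonneg h0)
    · exact (h3.trans (if_pos h2).ge).trans (single_le_sum h0 hy)
  refine (sum_le_sum h1).trans ?_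
  rw [sum_comm]
  refine sum_le_sum fun y hy => ?_
  rw [← sum_filter, sum_const, nsmul_eq_mul]
  have h2 : (K.filter fun k => r k y).card ≤ 1 := card_le_one.2 fun a ha b hb =>
    hr a (mem_filter.1 ha).1 b (mem_filter.1 hb).1 y (mem_filter.1 ha).2 (mem_filter.1 hb).2
  have h3 : ((K.filter fun k => r k y).card : ℝ) ≤ 1 := by exact_mod_cast h2
  nlinarith [hG y hy]

theorem eq_of_pt {M k k' : ℕ} (hk : k < M) (hk' : k' < M) {x : ℝ} {n n' : ℤ} (h : (k : ℝ) / M = x + n)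
    (h' : (k' : ℝ) / M = x + n') : k = k' := by
  have hM : (0 : ℝ) < M := by exact_mod_cast (Nat.zero_le k).trans_lt hk
  rw [div_eq_iff hM.ne'] at h h'
  have h1 : (k : ℤ) - k' = M * (n - n') := by
    have h2 : (k : ℝ) - k' = M * (n - n') := by linarith
    exact_mod_cast h2
  have := Int.eq_zero_of_abs_lt_dvd ⟨_, h1⟩ (abs_lt.2 ⟨by omega, by omega⟩)
  omega

/-- Dirichlet's theorem on the grid -/
theorem dirichlet {M R : ℕ} (hM : 0 < M) (hR : 0 < R) (hd : ∀ q : ℕ, 1 ≤ q → q ≤ R → q ∣ M) (k : ℕ) :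
    ∃ (q b : ℕ) (t n : ℤ), 1 ≤ q ∧ q ≤ R ∧ b < q ∧ b.Coprime q ∧ (k : ℝ) / M = b / q + t / M + n ∧
      q * R * |(t : ℝ) / M| ≤ 1 := by
  obtain ⟨r, h1, h2⟩ := Real.exists_rat_abs_sub_le_and_den_le ((k : ℝ) / M) hR
  have hq : 0 < r.den := r.den_pos
  have hq' : (0 : ℤ) < r.den := by exact_mod_cast hq
  have hqR : (0 : ℝ) < r.den := by exact_mod_cast hq
  have hMR : (0 : ℝ) < M := by exact_mod_cast hM
  obtain ⟨m, hm⟩ := hd r.den hq h2
  have hb : ((r.num % r.den).toNat : ℤ) = r.num % r.den := Int.toNat_of_nonneg (Int.emod_nonneg _ hq'.ne')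
  have e1 : (r : ℝ) = r.num / r.den := by exact_mod_cast (Rat.num_div_den r).symm
  have e2 : (M : ℝ) = r.den * m := by exact_mod_cast hm
  have hm0 : (m : ℝ) ≠ 0 := fun e => hMR.ne' (by rw [e2, e, mul_zero])
  have e3 : ((k - r.num * m : ℤ) : ℝ) / M = k / M - r := by
    rw [e1, e2]
    push_cast
    field_simp
  refine ⟨r.den, (r.num % r.den).toNat, k - r.num * m, r.num / r.den, hq, h2, ?_, ?_, ?_, ?_⟩
  · have := Int.emod_lt_of_pos r.num hq'
    omega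
  · rw [← Nat.isCoprime_iff_coprime, hb, Int.emod_def, sub_eq_add_neg, ← mul_neg]
    exact (Int.isCoprime_iff_gcd_eq_one.2 (show Int.gcd r.num (r.den : ℤ) = 1 from r.reduced)).add_mul_left_left _
  · have h3 := Int.emod_add_mul_ediv r.num r.den
    rw [← hb] at h3
    have h4 : ((r.num % r.den).toNat : ℝ) + r.den * ((r.num / r.den : ℤ) : ℝ) = r.num := by exact_mod_cast h3
    rw [e3, e1, ← h4]
    field_simp
    ring
  · rw [e3]
    rw [le_div_iff₀ (by positivity)] at h1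
    nlinarith [abs_nonneg ((k : ℝ) / M - r)]

theorem mem_Arcs {M R q : ℕ} {t : ℤ} (hM : 0 < M) (h1 : 1 ≤ q) (h2 : q ≤ R) (h : 2 * q * R * |(t : ℝ) / M| < 1) :
    (q, t) ∈ Arcs M R := by
  have hMR : (0 : ℝ) < M := by exact_mod_cast hM
  rw [abs_div, abs_of_pos hMR, ← mul_div_assoc, div_lt_one hMR, ← Int.cast_abs, Int.abs_eq_natAbs,
    Int.cast_natCast] at h
  have h3 : 2 * q * R * t.natAbs < M := by exact_mod_cast h
  have h4 : 1 * t.natAbs ≤ 2 * q * R * t.natAbs := Nat.mul_le_mul_right _ (Nat.mul_pos (by omega) (by omega))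
  simp only [Arcs, mem_filter, mem_product, mem_Icc]
  exact ⟨⟨⟨h1, h2⟩, by omega, by omega⟩, h3⟩

/-- the excess lives on the arcs -/
theorem excess_le {M R : ℕ} (hM : 0 < M) (hR : 0 < R) (hd : ∀ q : ℕ, 1 ≤ q → q ≤ R → q ∣ M) (δ s : ℝ → ℝ)
    (D : ℕ → ℝ → ℝ) (η : ℝ) (hδ : ∀ x (n : ℤ), δ (x + n) = δ x) (hs : ∀ x (n : ℤ), s (x + n) = s x)
    (hs0 : ∀ x, 0 ≤ s x) (hD0 : ∀ q β, 0 ≤ D q β)
    (hD : ∀ (q b : ℕ) (β : ℝ), b < q → b.Coprime q → δ (b / q + β) - η ≤ D q β)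
    (hz : ∀ (q : ℕ) (β : ℝ), 1 ≤ q → q ≤ R → 1 ≤ 2 * q * R * |β| → q * R * |β| ≤ 1 → D q β = 0) :
    ∑ k ∈ range M, δ (k / M) * s (k / M) ≤ ∑ k ∈ range M, min η (δ (k / M)) * s (k / M) +
      ∑ x ∈ Arcs M R, D x.1 (x.2 / M) * ∑ b ∈ (range x.1).filter (fun b => b.Coprime x.1), s (b / x.1 + x.2 / M) := by
  rw [← sub_le_iff_le_add', ← sum_sub_distrib]
  simp only [mul_sum]
  rw [sum_sigma']
  refine sum_le_of_rel _ _ (fun (k : ℕ) (y : Σ _ : ℕ × ℤ, ℕ) => ∃ n : ℤ, (k : ℝ) / M = y.2 / y.1.1 + y.1.2 / M + n) _ _ ?_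
    (fun y _ => mul_nonneg (hD0 _ _) (hs0 _)) fun k _ => ?_
  · rintro k hk k' hk' y ⟨n, h1⟩ ⟨n', h2⟩
    exact eq_of_pt (mem_range.1 hk) (mem_range.1 hk') h1 h2
  · obtain ⟨q, b, t, n, h1, h2, h3, h4, h5, h6⟩ := dirichlet hM hR hd k
    have h7 : δ (k / M) * s (k / M) - min η (δ (k / M)) * s (k / M) ≤ D q (t / M) * s (b / q + t / M) := by
      rw [h5, hδ, hs, ← sub_mul]
      refine mul_le_mul_of_nonneg_right ?_ (hs0 _)
      have h8 := hD q b (t / M) h3 h4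
      have h9 := hD0 q (t / M)
      rcases min_choice η (δ (b / q + t / M)) with e | e <;> rw [e] <;> linarith
    rcases lt_or_ge (2 * q * R * |(t : ℝ) / M|) 1 with h8 | h8
    · exact Or.inr ⟨⟨(q, t), b⟩, mem_sigma.2 ⟨mem_Arcs hM h1 h2 h8, mem_filter.2 ⟨mem_range.2 h3, h4⟩⟩, ⟨n, h5⟩, h7⟩
    · rw [hz q _ h1 h2 h8 h6, zero_mul] at h7
      exact Or.inl h7

/-- the comparison weight lives on the principal arc -/
theorem princ_le {M R : ℕ} (hM : 0 < M) (hR : 0 < R) (ν s : ℝ → ℝ) (ε : ℝ) (hν : ∀ x (n : ℤ), ν (x + n) = ν x)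
    (hs : ∀ x (n : ℤ), s (x + n) = s x) (hs0 : ∀ x, 0 ≤ s x) (hν0 : ∀ x, 0 ≤ ν x) (hε : 0 ≤ ε)
    (h : ∀ x, 1 ≤ 2 * R * nd x → ν x ≤ ε) :
    ∑ k ∈ range M, ν (k / M) * s (k / M) ≤ ε * ∑ k ∈ range M, s (k / M) +
      ∑ x ∈ (Arcs M R).filter (fun x => x.1 = 1), ν (x.2 / M) * s (x.2 / M) := by
  have hMR : (0 : ℝ) < M := by exact_mod_cast hM
  rw [← sub_le_iff_le_add', mul_sum, ← sum_sub_distrib]
  refine sum_le_of_rel _ _ (fun (k : ℕ) (y : ℕ × ℤ) => y.1 = 1 ∧ ∃ n : ℤ, (k : ℝ) / M = y.2 / M + n) _ _ ?_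
    (fun y _ => mul_nonneg (hν0 _) (hs0 _)) fun k _ => ?_
  · rintro k hk k' hk' y ⟨-, n, h1⟩ ⟨-, n', h2⟩
    exact eq_of_pt (mem_range.1 hk) (mem_range.1 hk') h1 h2
  · rcases lt_or_ge (2 * R * nd ((k : ℝ) / M)) 1 with h1 | h1
    · have e : ((k - M * round ((k : ℝ) / M) : ℤ) : ℝ) / M = k / M - round ((k : ℝ) / M) := by
        push_cast
        field_simp
      have e' : (k : ℝ) / M = ((k - M * round ((k : ℝ) / M) : ℤ) : ℝ) / M + round ((k : ℝ) / M) := by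
        rw [e, sub_add_cancel]
      refine Or.inr ⟨(1, k - M * round ((k : ℝ) / M)), mem_filter.2 ⟨mem_Arcs hM le_rfl hR ?_, rfl⟩,
        ⟨rfl, _, e'⟩, ?_⟩
      · rw [e, Nat.cast_one, mul_one]
        exact h1
      · have h2 := hν (((k - M * round ((k : ℝ) / M) : ℤ) : ℝ) / M) (round ((k : ℝ) / M))
        have h3 := hs (((k - M * round ((k : ℝ) / M) : ℤ) : ℝ) / M) (round ((k : ℝ) / M))
        rw [← e'] at h2 h3
        dsimp only
        rw [← h2, ← h3]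
        nlinarith [hs0 ((k : ℝ) / M)]
    · refine Or.inl ?_
      rw [← sub_mul]
      exact mul_nonpos_of_nonpos_of_nonneg (sub_nonpos.2 (h _ h1)) (hs0 _)

/-- the convolution -/
noncomputable def AA (n : ℕ) (a b : ℕ → ℝ) (y : ℕ) : ℝ :=
  ∑ u ∈ range (n + 1), ∑ v ∈ range (n + 1), if y + u + v = n then a u * b v else 0

theorem ortho3 {M n y : ℕ} (hM : 2 * n < M) (hy : y ≤ n) (a b : ℕ → ℝ) :
    ∑ k ∈ range M, ex ((k : ℝ) / M * y) *
      (SS (n + 1) a (k / M) * SS (n + 1) b (k / M) * ex (-((k : ℝ) / M * n))) = M * (AA n a b y : ℂ) := by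
  have h1 : ∀ k ∈ range M, ex ((k : ℝ) / M * y) *
      (SS (n + 1) a (k / M) * SS (n + 1) b (k / M) * ex (-((k : ℝ) / M * n))) =
      ∑ u ∈ range (n + 1), ∑ v ∈ range (n + 1),
        ((a u * b v : ℝ) : ℂ) * ex ((k : ℝ) * ((y : ℤ) + u + v - n : ℤ) / M) := by
    intro k _
    rw [SS, SS, sum_mul_sum, sum_mul, mul_sum]
    refine sum_congr rfl fun u _ => ?_
    rw [sum_mul, mul_sum]
    refine sum_congr rfl fun v _ => ?_
    have e : (k : ℝ) * ((y : ℤ) + u + v - n : ℤ) / M =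
        (k : ℝ) / M * y + ((k : ℝ) / M * u + (k : ℝ) / M * v + -((k : ℝ) / M * n)) := by
      push_cast
      ring
    rw [e, ex_add, ex_add, ex_add]
    push_cast
    ring
  rw [sum_congr rfl h1, sum_comm, AA, Complex.ofReal_sum, mul_sum]
  refine sum_congr rfl fun u hu => ?_
  rw [sum_comm, Complex.ofReal_sum, mul_sum]
  refine sum_congr rfl fun v hv => ?_
  rw [mem_range] at hu hv
  rw [← mul_sum, ortho' (by omega)]
  by_cases e : y + u + v = n
  · rw [if_pos e, if_pos ⟨0, by omega⟩, mul_comm]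
  · rw [if_neg e, if_neg fun h => e ?_, mul_zero, Complex.ofReal_zero, mul_zero]
    have := Int.eq_zero_of_abs_lt_dvd h (abs_lt.2 ⟨by omega, by omega⟩)
    omega

theorem sum_trunc {β : Type*} [AddCommMonoid β] {M n : ℕ} (h : n ≤ M) (f : ℕ → β) (hf : ∀ u, n ≤ u → f u = 0) :
    ∑ u ∈ range M, f u = ∑ u ∈ range n, f u :=
  (sum_subset (range_subset_range.2 h) fun u _ hu => hf u (by simpa using hu)).symm

theorem SS_trunc {M n : ℕ} (h : n ≤ M) {a : ℕ → ℝ} (ha : ∀ u, n ≤ u → a u = 0) (x : ℝ) : SS M a x = SS n a x :=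
  sum_trunc h _ fun u hu => by rw [ha u hu, Complex.ofReal_zero, zero_mul]

theorem ex_per (x : ℝ) (n : ℤ) (y : ℕ) : ex ((x + n) * y) = ex (x * y) := by
  rw [add_mul, ← ex_add_int (x * y) (n * y)]
  push_cast
  rfl

theorem phiH_per (N c1 : ℕ) (lam : ℕ → ℕ → ℝ) (x : ℝ) (n : ℤ) : phiH N c1 lam (x + n) = phiH N c1 lam x := by
  simp only [phiH, ex_per]

theorem nuH_eq (N c1 : ℕ) (x : ℝ) : nuH N c1 x = ∑ s ∈ range 8, ∑ j ∈ JW N s, (lw j : ℂ) *
    ∑ i ∈ range (Ew s), ∑ v ∈ range (60 * j + 2), ((tw s i / (Tw s * (60 * j + 2)) : ℝ) : ℂ) *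
      ex (x * ((c1 * j + i * (60 * j + 2) + v : ℕ) : ℝ)) := by
  refine sum_congr rfl fun s _ => sum_congr rfl fun j _ => ?_
  congr 1
  rw [tau, mul_sum, sum_mul]
  refine sum_congr rfl fun i _ => ?_
  rw [sum_div, mul_sum]
  refine sum_congr rfl fun v _ => ?_
  have e : x * ((c1 * j + i * (60 * j + 2) + v : ℕ) : ℝ) = x * (c1 * j) + x * (60 * j + 2) * i + x * v := by
    push_cast
    ring
  rw [e, ex_add, ex_add, ← div_div]
  push_cast
  ring

theorem nuH_per (N c1 : ℕ) (x : ℝ) (n : ℤ) : nuH N c1 (x + n) = nuH N c1 x := by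
  simp only [nuH_eq, ex_per]

theorem phi_dual (N c1 M : ℕ) (lam : ℕ → ℕ → ℝ) (G : ℕ → ℂ) :
    ∑ k ∈ range M, phiH N c1 lam (k / M) * G k = ∑ s ∈ range 8, ∑ j ∈ JW N s, (lw j : ℂ) *
      ∑ i ∈ range (Ew s), ((lam s i / Tw s : ℝ) : ℂ) *
        ∑ k ∈ range M, ex ((k : ℝ) / M * ((i * (60 * j + 2) + c1 * j : ℕ) : ℝ)) * G k := by
  simp only [phiH, sum_mul, mul_sum]
  rw [sum_comm]
  refine sum_congr rfl fun s _ => ?_
  rw [sum_comm]
  refine sum_congr rfl fun j _ => ?_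
  rw [sum_comm]
  refine sum_congr rfl fun i _ => sum_congr rfl fun k _ => ?_
  ring

theorem nu_dual (N c1 M : ℕ) (G : ℕ → ℂ) :
    ∑ k ∈ range M, nuH N c1 (k / M) * G k = ∑ s ∈ range 8, ∑ j ∈ JW N s, (lw j : ℂ) *
      ∑ i ∈ range (Ew s), ∑ v ∈ range (60 * j + 2), ((tw s i / (Tw s * (60 * j + 2)) : ℝ) : ℂ) *
        ∑ k ∈ range M, ex ((k : ℝ) / M * ((c1 * j + i * (60 * j + 2) + v : ℕ) : ℝ)) * G k := by
  simp only [nuH_eq, sum_mul, mul_sum]
  rw [sum_comm]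
  refine sum_congr rfl fun s _ => ?_
  rw [sum_comm]
  refine sum_congr rfl fun j _ => ?_
  rw [sum_comm]
  refine sum_congr rfl fun i _ => ?_
  rw [sum_comm]
  refine sum_congr rfl fun v _ => sum_congr rfl fun k _ => ?_
  ring

theorem nuw_eq (c1 s j y : ℕ) : ∑ i ∈ range (Ew s), ∑ v ∈ range (60 * j + 2),
    (if c1 * j + i * (60 * j + 2) + v = y then (tw s i / (Tw s * (60 * j + 2)) : ℝ) else 0) = nuw c1 s j y := by
  have hb : 0 < 60 * j + 2 := by omega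
  unfold nuw
  generalize (60 * j + 2 : ℝ) = B
  generalize 60 * j + 2 = b at hb ⊢
  split_ifs with h
  · obtain ⟨z, rfl⟩ := Nat.exists_eq_add_of_le h
    rw [Nat.add_sub_cancel_left]
    have h1 : ∀ i v, v < b → c1 * j + i * b + v = c1 * j + z → i = z / b := fun i v hv e => by
      have e1 : z = v + i * b := by omega
      rw [e1, Nat.add_mul_div_right _ _ hb, Nat.div_eq_of_lt hv, zero_add]
    rw [sum_eq_single (z / b)]
    · rw [sum_eq_single (z % b)]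
      · rw [if_pos]
        have := Nat.div_add_mod' z b
        omega
      · intro v _ hv
        refine if_neg fun e => hv ?_
        have := Nat.div_add_mod' z b
        omega
      · exact fun e => absurd (mem_range.2 (Nat.mod_lt _ hb)) e
    · exact fun i _ hi => sum_eq_zero fun v hv => if_neg fun e => hi (h1 i v (mem_range.1 hv) e)
    · intro e
      rw [L.tw_zero_right (by simp only [mem_range] at e; omega)]
      simp
  · exact sum_eq_zero fun i _ => sum_eq_zero fun v _ => if_neg (by omega)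

theorem nu_conv (c1 s j n : ℕ) (a b : ℕ → ℝ) : ∑ i ∈ range (Ew s), ∑ v ∈ range (60 * j + 2),
    (tw s i / (Tw s * (60 * j + 2)) : ℝ) * AA n a b (c1 * j + i * (60 * j + 2) + v) =
    ∑ u ∈ range (n + 1), ∑ v ∈ range (n + 1), if u + v ≤ n then a u * b v * nuw c1 s j (n - u - v) else 0 := by
  simp only [AA, mul_sum]
  rw [sum_congr rfl fun i _ => sum_comm, sum_comm]
  refine sum_congr rfl fun u _ => ?_
  rw [sum_congr rfl fun i _ => sum_comm, sum_comm]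
  refine sum_congr rfl fun v _ => ?_
  split_ifs with h
  · rw [← nuw_eq, mul_sum]
    refine sum_congr rfl fun i _ => ?_
    rw [mul_sum]
    refine sum_congr rfl fun v' _ => ?_
    by_cases e : c1 * j + i * (60 * j + 2) + v' + u + v = n
    · rw [if_pos e, if_pos (by omega), mul_comm]
    · rw [if_neg e, if_neg (by omega), mul_zero, mul_zero]
  · exact sum_eq_zero fun i _ => sum_eq_zero fun v' _ => by rw [if_neg (by omega), mul_zero]

end Cfsg.Agent.Depth.K
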